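import Cfsg.Agent.H777.ElimDef
import Mathlib.GroupTheory.SpecificGroups.Alternating
import Mathlib.GroupTheory.Perm.ViaEmbedding
import Mathlib.Data.ZMod.Basic

/-!
# Six disjoint 3-cycles (helper352)
-/

set_option autoImplicit false

namespace Cfsg.Agent.H352.Th

open Cfsg.Agent.H777.Elim

/-- the translations in the rows -/
def shiftHom (k : ℕ) : Multiplicative (Fin k → ZMod 3) →* Equiv.Perm (Fin k × ZMod 3) where
  toFun v :=
    { toFun := fun x => (x.1, x.2 + (Multiplicative.toAdd v) x.1)
      invFun := fun x => (x.1, x.2 - (Multiplicative.toAdd v) x.1)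
      left_inv := fun x => by simp
      right_inv := fun x => by simp }
  map_one' := by ext x <;> simp
  map_mul' v w := by
    apply Equiv.ext
    intro x
    refine Prod.ext rfl ?_
    show x.2 + (Multiplicative.toAdd v + Multiplicative.toAdd w) x.1 =
      (x.2 + (Multiplicative.toAdd w) x.1) + (Multiplicative.toAdd v) x.1
    rw [Pi.add_apply]
    ring

theorem shiftHom_inj (k : ℕ) : Function.Injective (shiftHom k) := by
  intro v w h
  apply Multiplicative.toAdd.injective
  funext i
  have := congrArg (fun g : Equiv.Perm (Fin k × ZMod 3) => (g (i, 0)).2) h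
  simpa [shiftHom] using this

theorem exists_emb {k n : ℕ} (hn : 3 * k ≤ n) : Nonempty (Fin k × ZMod 3 ↪ Fin n) := by
  apply Function.Embedding.nonempty_of_card_le
  rw [Fintype.card_prod, Fintype.card_fin, Fintype.card_fin, ZMod.card]
  omega

/-- `3 ^ k` elements of exponent 3 in the alternating group -/
theorem exists_hom {k n : ℕ} (hn : 3 * k ≤ n) :
    ∃ f : Multiplicative (Fin k → ZMod 3) →* alternatingGroup (Fin n), Function.Injective f := by
  obtain ⟨ι⟩ := exists_emb hn
  let g := (Equiv.Perm.viaEmbeddingHom ι).comp (shiftHom k)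
  have hg : Function.Injective g := (Equiv.Perm.viaEmbeddingHom_injective ι).comp (shiftHom_inj k)
  have h3 : ∀ v, g v ∈ alternatingGroup (Fin n) := by
    intro v
    rw [Equiv.Perm.mem_alternatingGroup]
    have h1 : v ^ 3 = 1 := by
      apply Multiplicative.toAdd.injective
      funext i
      show (3 • Multiplicative.toAdd v) i = 0
      rw [Pi.smul_apply]
      generalize (Multiplicative.toAdd v) i = a
      revert a; decide
    have h2 : (Equiv.Perm.sign (g v)) ^ 3 = 1 := by
      rw [← map_pow, ← map_pow, h1, map_one, map_one]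
    rcases Int.units_eq_one_or (Equiv.Perm.sign (g v)) with h | h
    · exact h
    · rw [h] at h2
      exact absurd h2 (by decide)
  refine ⟨g.codRestrict (alternatingGroup (Fin n)) h3, ?_⟩
  intro v w h
  exact hg (congrArg Subtype.val h)

theorem alt_big {n : ℕ} (hn : 18 ≤ n) : Big (alternatingGroup (Fin n)) := by
  obtain ⟨f, hf⟩ := exists_hom (k := 6) (n := n) (by omega)
  have hc : Nat.card (Multiplicative (Fin 6 → ZMod 3)) = 3 ^ 6 := by
    rw [Nat.card_congr Multiplicative.toAdd, Nat.card_eq_fintype_card]
    simp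
  have hc' : Nat.card ↥(⊤ : Subgroup (Multiplicative (Fin 6 → ZMod 3))) = 3 ^ 6 := by
    rw [Subgroup.card_top, hc]
  exact Big.of_hom (A := ⊤) f (IsPGroup.of_card hc') (fun x _ y _ => mul_comm x y) (le_of_eq hc'.symm)
    (fun x _ h => hf (by rw [h, map_one]))

end Cfsg.Agent.H352.Th
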