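import Mathlib.LinearAlgebra.Charpoly.ToMatrix
import Mathlib.LinearAlgebra.Matrix.CharP
import Mathlib.Algebra.CharP.Lemmas
import Mathlib.RingTheory.Nilpotent.Lemmas
import Mathlib.LinearAlgebra.Eigenspace.Zero
import Mathlib.GroupTheory.OrderOfElement
import Mathlib.GroupTheory.QuotientGroup.Basic
import Mathlib.GroupTheory.Subgroup.Center

/-!
# No elements of order 27 in linear groups of degree at most 9 in characteristic 3 modulo the centre (helper352)
-/

set_option autoImplicit false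

namespace Cfsg.Agent.H352.Th

variable {F : Type*} [Field F] [CharP F 3] {ι : Type*} [Fintype ι] [DecidableEq ι]

theorem pow_nine (hn : Fintype.card ι ≤ 9) {A : Matrix ι ι F} {k : ℕ} (h : A ^ 3 ^ k = 1) : A ^ 9 = 1 := by
  have : Fact (Nat.Prime 3) := ⟨Nat.prime_three⟩
  rcases isEmpty_or_nonempty ι with he | he
  · exact Subsingleton.elim _ _
  have h1 : (A - 1) ^ 3 ^ k = 0 := by
    rw [sub_pow_char_pow_of_commute 3 k (Commute.one_right A), h, one_pow, sub_self]
  have h2 : IsNilpotent (Matrix.toLin' (A - 1)) := by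
    refine ⟨3 ^ k, ?_⟩
    rw [← Matrix.toLin'_pow, h1, map_zero]
  have h3 := (LinearMap.charpoly_nilpotent_tfae (Matrix.toLin' (A - 1))).out 0 1
  have h4 := h3.1 h2
  have h5 := LinearMap.aeval_self_charpoly (Matrix.toLin' (A - 1))
  rw [h4, map_pow, Polynomial.aeval_X, Module.finrank_fintype_fun_eq_card, ← Matrix.toLin'_pow] at h5
  have h6 : (A - 1) ^ Fintype.card ι = 0 := (Matrix.toLin' (R := F)).injective (by rw [h5, map_zero])
  have h7 : (A - 1) ^ 3 ^ 2 = 0 := pow_eq_zero_of_le (by simpa using hn) h6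
  rw [sub_pow_char_pow_of_commute 3 2 (Commute.one_right A), one_pow, sub_eq_zero] at h7
  exact h7

theorem no27 (hn : Fintype.card ι ≤ 9) {M : Type*} [Group M] (ρ : M →* Matrix ι ι F)
    (hρ : Function.Injective ρ) (hc : (Nat.card (Subgroup.center M)).Coprime 3) (x : M ⧸ Subgroup.center M) :
    orderOf x ≠ 27 := by
  intro hx
  obtain ⟨y, rfl⟩ := QuotientGroup.mk_surjective x
  set c := Nat.card (Subgroup.center M) with hcdef
  have h1 : y ^ 27 ∈ Subgroup.center M := by
    rw [← QuotientGroup.eq_one_iff, QuotientGroup.mk_pow, ← hx]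
    exact pow_orderOf_eq_one _
  have h2 : (y ^ c) ^ 3 ^ 3 = 1 := by
    rw [← pow_mul, mul_comm, pow_mul]
    have := congrArg Subtype.val (pow_card_eq_one' (x := (⟨y ^ 27, h1⟩ : Subgroup.center M)))
    exact this
  have h3 : (ρ (y ^ c)) ^ 9 = 1 := by
    apply pow_nine hn (k := 3)
    rw [← map_pow, h2, map_one]
  have h4 : (y ^ c) ^ 9 = 1 := hρ (by rw [map_pow, h3, map_one])
  have h5 : orderOf (QuotientGroup.mk y : M ⧸ Subgroup.center M) ∣ c * 9 := by
    apply orderOf_dvd_of_pow_eq_one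
    rw [pow_mul, ← QuotientGroup.mk_pow, ← QuotientGroup.mk_pow, h4]
    rfl
  rw [hx] at h5
  have h6 : (27 : ℕ) ∣ 9 := by
    refine Nat.Coprime.dvd_of_dvd_mul_left ?_ h5
    exact (show (27 : ℕ) = 3 ^ 3 by norm_num) ▸ (hc.symm.pow_left 3)
  revert h6; decide

theorem no27' (hn : Fintype.card ι ≤ 9) {M : Type*} [Group M] (ρ : M →* Matrix ι ι F)
    (hρ : Function.Injective ρ) (hc : (Nat.card (Subgroup.center M)).Coprime 3) {K : Type*} [Group K]
    (e : K ≃* M ⧸ Subgroup.center M) (h : ∃ x : K, orderOf x = 27) : False := by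
  obtain ⟨x, hx⟩ := h
  exact no27 hn ρ hρ hc (e x) (by rw [← hx]; exact MulEquiv.orderOf_eq e x)

end Cfsg.Agent.H352.Th
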