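import Cfsg.Agent.OrdDiv.Main
import Cfsg.Agent.S0279
import Cfsg.Agent.H352.Th.No27
import Cfsg.Agent.H352.Th.AltBig
import Cfsg.Agent.LieClassical.OmegaReindex
import Mathlib.LinearAlgebra.Matrix.SpecialLinearGroup

/-!
# The elimination of the simple groups with Sylow 3-subgroup of order `3 ^ 10`: assembly (helper352, task 498)
-/

set_option autoImplicit false

namespace Cfsg.Agent.H352.Th

open Cfsg Cfsg.Agent.OrdDiv Cfsg.Agent.H777.Elim

universe u

/-- the rows of the groups of Lie type in characteristic different from 3 -/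
structure Rows : Prop where
  psl : ∀ {n : ℕ}, 2 ≤ n → ∀ {F : Type} [Field F] [Fintype F], (3 : F) ≠ 0 →
    Row (Matrix.ProjectiveSpecialLinearGroup (Fin n) F)
  psu : ∀ {n q : ℕ}, 3 ≤ n → ∀ {F : Type} [Field F] [Fintype F], Fintype.card F = q ^ 2 → (3 : F) ≠ 0 →
    Row (PSU n F q)
  psp : ∀ {m : ℕ}, 1 ≤ m → ∀ {F : Type} [Field F] [Fintype F], (3 : F) ≠ 0 → Row (PSp m F)
  oodd : ∀ {m : ℕ}, 3 ≤ m → ∀ {F : Type} [Field F] [Fintype F], Odd (Fintype.card F) → (3 : F) ≠ 0 →
    Row (POmega F (quadFormOdd m F))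
  oplus : ∀ {m : ℕ}, 4 ≤ m → ∀ {F : Type} [Field F] [Fintype F], (3 : F) ≠ 0 → Row (POmega F (quadFormPlus m F))
  ominus : ∀ {m : ℕ}, 4 ≤ m → ∀ {F : Type} [Field F] [Fintype F] {a b : F},
    (∀ z₁ z₂ : F, z₁ ^ 2 + a * z₁ * z₂ + b * z₂ ^ 2 = 0 → z₁ = 0 ∧ z₂ = 0) → (3 : F) ≠ 0 →
    Row (POmega F (quadFormMinus (m - 1) F a b))
  g2 : ∀ {F : Type} [Field F] [Fintype F], (3 : F) ≠ 0 → Row ↥(Lie.chevG2.group F)
  f4 : ∀ {F : Type} [Field F] [Fintype F], (3 : F) ≠ 0 → Row ↥(Lie.chevF4.group F)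
  e6 : ∀ {F : Type} [Field F] [Fintype F], (3 : F) ≠ 0 → Row ↥(Lie.chevE6.group F)
  e7 : ∀ {F : Type} [Field F] [Fintype F], (3 : F) ≠ 0 → Row ↥(Lie.chevE7.group F)
  e8 : ∀ {F : Type} [Field F] [Fintype F], (3 : F) ≠ 0 → Row ↥(Lie.chevE8.group F)
  te6 : ∀ {F : Type} [Field F] [Fintype F] {q : ℕ}, IsPrimePow q → Fintype.card F = q ^ 2 → (3 : F) ≠ 0 →
    Row ↥(Lie.twistedE6 F q)
  td4 : ∀ {F : Type} [Field F] [Fintype F] {q : ℕ}, IsPrimePow q → Fintype.card F = q ^ 3 → (3 : F) ≠ 0 →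
    Row ↥(Lie.twistedD4 F q)
  tf4 : ∀ {F : Type} [Field F] [Fintype F] {m : ℕ}, 1 ≤ m → Fintype.card F = 2 ^ (2 * m + 1) →
    Row ↥(Lie.twistedF4 F (2 ^ m))

/-! ### characteristic three -/

theorem three_ne {F : Type*} [Field F] [Fintype F] (h : ¬ 3 ∣ Fintype.card F) : (3 : F) ≠ 0 := by
  intro h3
  apply h
  obtain ⟨p, hp⟩ := CharP.exists F
  have hpp : p.Prime := (CharP.char_is_prime_or_zero F p).resolve_right (by
    intro h0
    subst h0
    have := CharP.charP_to_charZero F
    exact not_finite F)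
  obtain ⟨n, hn⟩ := FiniteField.card F p
  have h1 : p ∣ 3 := (CharP.cast_eq_zero_iff F p 3).1 (by exact_mod_cast h3)
  have h2 : p = 3 := (Nat.prime_dvd_prime_iff_eq hpp Nat.prime_three).1 h1
  rw [hn.2, h2]
  exact dvd_pow_self 3 n.ne_zero

theorem three_ne_of_pow {F : Type*} [Field F] [Fintype F] {q k : ℕ} (hF : Fintype.card F = q ^ k) (h : ¬ 3 ∣ q) :
    (3 : F) ≠ 0 := three_ne (by rw [hF]; exact fun h1 => h (Nat.prime_three.dvd_of_dvd_pow h1))

theorem charP_three {F : Type*} [Field F] [Fintype F] (h : 3 ∣ Fintype.card F) : CharP F 3 := by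
  obtain ⟨p, hp⟩ := CharP.exists F
  have hpp : p.Prime := (CharP.char_is_prime_or_zero F p).resolve_right (by
    intro h0
    subst h0
    have := CharP.charP_to_charZero F
    exact not_finite F)
  obtain ⟨n, hn⟩ := FiniteField.card F p
  rw [hn.2] at h
  have h1 : p = 3 := ((Nat.prime_dvd_prime_iff_eq Nat.prime_three hpp).1 (Nat.prime_three.dvd_of_dvd_pow h)).symm
  rwa [h1] at hp

/-- the 3-part of a group of Lie type in characteristic three is at least `q ^ e` -/
theorem le_ten {q e d N u : ℕ} (hq : IsPrimePow q) (h3 : 3 ∣ q) (hd : d.Coprime q) (h : d * N = q ^ e * u)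
    (hV : ¬ 3 ^ 11 ∣ N) : ∃ f, 1 ≤ f ∧ q = 3 ^ f ∧ f * e ≤ 10 := by
  obtain ⟨p, f, hp, hf, rfl⟩ := (isPrimePow_nat_iff q).1 hq
  have hp3 : p = 3 := ((Nat.prime_dvd_prime_iff_eq Nat.prime_three hp).1 (Nat.prime_three.dvd_of_dvd_pow h3)).symm
  subst hp3
  refine ⟨f, hf, rfl, ?_⟩
  by_contra hlt
  push Not at hlt
  have h1 : (3 ^ f) ^ e ∣ N :=
    Nat.Coprime.dvd_of_dvd_mul_left (Nat.Coprime.pow_left _ hd.symm) (Dvd.intro _ h.symm)
  rw [← pow_mul] at h1
  exact hV ((pow_dvd_pow 3 (by omega)).trans h1)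

theorem eq_ten {q e d N u : ℕ} (hq : IsPrimePow q) (h3 : 3 ∣ q) (hd : d.Coprime q) (hu : u.Coprime q)
    (h : d * N = q ^ e * u) (hV : 3 ^ 10 ∣ N ∧ ¬ 3 ^ 11 ∣ N) : ∃ f, 1 ≤ f ∧ q = 3 ^ f ∧ f * e = 10 := by
  obtain ⟨f, hf, rfl, hle⟩ := le_ten hq h3 hd h hV.2
  refine ⟨f, hf, rfl, le_antisymm hle ?_⟩
  have h1 : 3 ^ 10 ∣ (3 ^ f) ^ e * u := by rw [← h]; exact hV.1.mul_left d
  have h2 : (3 ^ 10).Coprime u := (Nat.Coprime.coprime_dvd_right h3 hu).symm.pow_left 10
  have h4 := h2.dvd_of_dvd_mul_right h1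
  rw [← pow_mul] at h4
  exact (Nat.pow_dvd_pow_iff_le_right (by norm_num)).1 h4

theorem cop3 {q d : ℕ} (h3 : 3 ∣ q) (h : d.Coprime q) : d.Coprime 3 := Nat.Coprime.coprime_dvd_right h3 h

/-! ### the classical families -/

section

variable {X : Type*} [Group X]

theorem psl_case (R : Rows) {F : Type} [Field F] [Fintype F] {n : ℕ} (hn : 2 ≤ n)
    (hV : Vn 10 X) (h27 : ∃ x : X, orderOf x = 27) (hB : ¬ Big X)
    (e : X ≃* Matrix.ProjectiveSpecialLinearGroup (Fin n) F) : False := by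
  by_cases ho : 3 ∣ Fintype.card F
  swap
  · exact hB ((R.psl hn (three_ne ho)).congr e.symm hV)
  have hq : 1 < Fintype.card F := Fintype.one_lt_card
  have h1 := cop_sub (q := Fintype.card F) (k := 1) (by omega) le_rfl
  rw [pow_one] at h1
  have hc := S0243.result (F := F) rfl n hn
  rw [Fin.prod_univ_eq_prod_range (fun i => Fintype.card F ^ n - Fintype.card F ^ i) n, ← prod_list] at hc
  have hc' : Nat.gcd n (Fintype.card F - 1) * (Fintype.card F - 1) *
      Nat.card (Matrix.ProjectiveSpecialLinearGroup (Fin n) F) = glN n (Fintype.card F) := by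
    rw [mul_assoc]; exact hc
  obtain ⟨u, hu⟩ := pow_dvd_glN n (Fintype.card F)
  rw [hu] at hc'
  obtain ⟨f, hf, -, hle⟩ := le_ten Fintype.isPrimePow_card_of_field ho
    (Nat.Coprime.mul_left (Nat.Coprime.coprime_dvd_left (Nat.gcd_dvd_right _ _) h1) h1) hc'
    (by rw [← Nat.card_congr e.toEquiv]; exact hV.2)
  have hn5 : n ≤ 9 := by
    by_contra hlt
    push Not at hlt
    have h2 : 10 * 9 ≤ n * (n - 1) := Nat.mul_le_mul (by omega) (by omega)
    have h3 : 45 ≤ n * (n - 1) / 2 := by omega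
    have : 1 * 45 ≤ f * (n * (n - 1) / 2) := Nat.mul_le_mul hf h3
    omega
  have := charP_three ho
  refine no27' (F := F) (ι := Fin n) (by rw [Fintype.card_fin]; exact hn5)
    ((Units.coeHom (Matrix (Fin n) (Fin n) F)).comp Matrix.SpecialLinearGroup.toGL) (by
      intro a b hab
      exact Subtype.ext hab) ?_ e h27
  rw [Nat.card_congr (Matrix.SpecialLinearGroup.center_equiv_rootsOfUnity (n := Fin n) (R := F)).toEquiv]
  have h5 : Nat.card ↥(rootsOfUnity (max (Fintype.card (Fin n)) 1) F) ∣ Fintype.card F - 1 := by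
    have h6 := Subgroup.card_subgroup_dvd_card (rootsOfUnity (max (Fintype.card (Fin n)) 1) F)
    rwa [Nat.card_units, Nat.card_eq_fintype_card (α := F)] at h6
  exact Nat.Coprime.coprime_dvd_left h5 (cop3 ho h1)

theorem psp_case (R : Rows) {F : Type} [Field F] [Fintype F] {m : ℕ} (hm : 2 ≤ m)
    (hV : Vn 10 X) (h27 : ∃ x : X, orderOf x = 27) (hB : ¬ Big X)
    (e : X ≃* PSp m F) : False := by
  by_cases ho : 3 ∣ Fintype.card F
  swap
  · exact hB ((R.psp (by omega) (three_ne ho)).congr e.symm hV)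
  have hq : 1 < Fintype.card F := Fintype.one_lt_card
  have h1 := cop_sub (q := Fintype.card F) (k := 1) (by omega) le_rfl
  rw [pow_one] at h1
  have hd : (Nat.gcd 2 (Fintype.card F - 1)).Coprime (Fintype.card F) :=
    Nat.Coprime.coprime_dvd_left (Nat.gcd_dvd_right _ _) h1
  have hc : Nat.gcd 2 (Fintype.card F - 1) * Nat.card (PSp m F) =
      Fintype.card F ^ (m ^ 2) * ∏ i ∈ Finset.range m, (Fintype.card F ^ (2 * (i + 1)) - 1) := by
    have h1 := S0245.result (F := F) rfl m
    have h2 := S0246.result (F := F) rfl m (by omega)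
    have h3 := Subgroup.card_eq_card_quotient_mul_card_subgroup
      (Subgroup.center (Matrix.symplecticGroup (Fin m) F))
    rw [h1, h2] at h3
    rw [mul_comm]
    exact h3.symm
  obtain ⟨f, hf, -, hle⟩ := le_ten Fintype.isPrimePow_card_of_field ho hd hc
    (by rw [← Nat.card_congr e.toEquiv]; exact hV.2)
  have hm3 : m ≤ 3 := by
    by_contra hlt
    push Not at hlt
    have h2 : 4 * 4 ≤ m * m := Nat.mul_le_mul (by omega) (by omega)
    rw [← sq m] at h2
    have : 1 * 16 ≤ f * m ^ 2 := Nat.mul_le_mul hf h2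
    omega
  have := charP_three ho
  refine no27' (F := F) (ι := Fin m ⊕ Fin m) (by rw [Fintype.card_sum, Fintype.card_fin]; omega)
    (Submonoid.subtype (Matrix.symplecticGroup (Fin m) F)) Subtype.val_injective ?_ e h27
  rw [S0246.result (F := F) rfl m (by omega)]
  exact cop3 ho hd

theorem psu_case (R : Rows) {F : Type} [Field F] [Fintype F] {n q : ℕ} (hF : Fintype.card F = q ^ 2) (hn : 3 ≤ n)
    (hV : Vn 10 X) (h27 : ∃ x : X, orderOf x = 27) (hB : ¬ Big X) (e : X ≃* PSU n F q) : False := by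
  have hq2 : IsPrimePow (q ^ 2) := hF ▸ Fintype.isPrimePow_card_of_field
  have hqp : IsPrimePow q := (isPrimePow_pow_iff (by norm_num)).1 hq2
  by_cases ho : 3 ∣ q
  swap
  · exact hB ((R.psu hn hF (three_ne_of_pow hF ho)).congr e.symm hV)
  have h1 := cop_add (q := q) (k := 1) le_rfl
  rw [pow_one] at h1
  have hc := S0280.result hF n (by omega)
  rw [← mul_assoc] at hc
  obtain ⟨f, hf, -, hle⟩ := le_ten hqp ho
    (Nat.Coprime.mul_left (Nat.Coprime.coprime_dvd_left (Nat.gcd_dvd_right _ _) h1) h1) hc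
    (by rw [← Nat.card_congr e.toEquiv]; exact hV.2)
  have hn5 : n ≤ 9 := by
    by_contra hlt
    push Not at hlt
    have h2 : 10 * 9 ≤ n * (n - 1) := Nat.mul_le_mul (by omega) (by omega)
    have h3 : 45 ≤ n * (n - 1) / 2 := by omega
    have : 1 * 45 ≤ f * (n * (n - 1) / 2) := Nat.mul_le_mul hf h3
    omega
  have := charP_three (F := F) (by rw [hF]; exact dvd_pow ho (by norm_num))
  refine no27' (F := F) (ι := Fin n) (by rw [Fintype.card_fin]; exact hn5)
    ((slToMat n F).comp (SU n F q).subtype) (by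
      intro a b hab
      exact Subtype.ext (Subtype.ext hab)) ?_ e h27
  rw [S0279.result hF n hn]
  exact Nat.Coprime.coprime_dvd_left (Nat.gcd_dvd_right _ _) (cop3 ho h1)

theorem oodd_case (R : Rows) {F : Type} [Field F] [Fintype F] {m : ℕ} (hm : 3 ≤ m) (ho2 : Odd (Fintype.card F))
    (hV : Vn 10 X) (hB : ¬ Big X) (e : X ≃* POmega F (quadFormOdd m F)) : False := by
  by_cases ho : 3 ∣ Fintype.card F
  swap
  · exact hB ((R.oodd hm ho2 (three_ne ho)).congr e.symm hV)
  have hc := S0292.result (F := F) rfl ho2 m hm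
  have hcop : (∏ i ∈ Finset.range m, (Fintype.card F ^ (2 * (i + 1)) - 1)).Coprime (Fintype.card F) :=
    Nat.Coprime.prod_left fun i _ => cop_sub Fintype.card_pos (by omega)
  obtain ⟨f, hf, -, he⟩ := eq_ten Fintype.isPrimePow_card_of_field ho
    (by rw [Nat.coprime_two_left]; exact ho2) hcop hc
    (by rw [← Nat.card_congr e.toEquiv]; exact hV)
  have h2 : 3 * 3 ≤ m * m := Nat.mul_le_mul (by omega) (by omega)
  have h3 : m ≤ 3 := by
    by_contra hlt
    push Not at hlt
    have h2 : 4 * 4 ≤ m * m := Nat.mul_le_mul (by omega) (by omega)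
    rw [← sq m] at h2
    have : 1 * 16 ≤ f * m ^ 2 := Nat.mul_le_mul hf h2
    omega
  have h4 : m = 3 := by omega
  rw [h4] at he
  omega

theorem oplus_case (R : Rows) {F : Type} [Field F] [Fintype F] {m : ℕ} (hm : 4 ≤ m)
    (hV : Vn 10 X) (hB : ¬ Big X) (e : X ≃* POmega F (quadFormPlus m F)) : False := by
  by_cases ho : 3 ∣ Fintype.card F
  swap
  · exact hB ((R.oplus hm (three_ne ho)).congr e.symm hV)
  have hc := S0293.result (F := F) rfl m hm
  rw [mul_assoc (Fintype.card F ^ (m * (m - 1)))] at hc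
  obtain ⟨f, hf, -, he⟩ := le_ten Fintype.isPrimePow_card_of_field ho
    (Nat.Coprime.coprime_dvd_left (Nat.gcd_dvd_right _ _) (cop_sub Fintype.card_pos (by omega))) hc
    (by rw [← Nat.card_congr e.toEquiv]; exact hV.2)
  have h2 : 4 * 3 ≤ m * (m - 1) := Nat.mul_le_mul (by omega) (by omega)
  have : 1 * 12 ≤ f * (m * (m - 1)) := Nat.mul_le_mul hf h2
  omega

theorem ominus_case (R : Rows) {F : Type} [Field F] [Fintype F] {m : ℕ} (hm : 4 ≤ m) {a b : F}
    (hab : ∀ z₁ z₂ : F, z₁ ^ 2 + a * z₁ * z₂ + b * z₂ ^ 2 = 0 → z₁ = 0 ∧ z₂ = 0)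
    (hV : Vn 10 X) (hB : ¬ Big X) (e : X ≃* POmega F (quadFormMinus (m - 1) F a b)) : False := by
  by_cases ho : 3 ∣ Fintype.card F
  swap
  · exact hB ((R.ominus hm hab (three_ne ho)).congr e.symm hV)
  have hc := S0294.result (F := F) rfl m hm a b hab
  rw [mul_assoc (Fintype.card F ^ (m * (m - 1)))] at hc
  obtain ⟨f, hf, -, he⟩ := le_ten Fintype.isPrimePow_card_of_field ho
    (Nat.Coprime.coprime_dvd_left (Nat.gcd_dvd_right _ _) (cop_add (by omega))) hc
    (by rw [← Nat.card_congr e.toEquiv]; exact hV.2)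
  have h2 : 4 * 3 ≤ m * (m - 1) := Nat.mul_le_mul (by omega) (by omega)
  have : 1 * 12 ≤ f * (m * (m - 1)) := Nat.mul_le_mul hf h2
  omega

end

/-! ### alternating groups -/

theorem alt_case {X : Type*} [Group X] {n : ℕ} (hn : 5 ≤ n) (hV : Vn 10 X) (hB : ¬ Big X)
    (e : X ≃* ↥(alternatingGroup (Fin n))) : False := by
  have hc := alt_card hn e
  by_cases h18 : 18 ≤ n
  · exact hB ((alt_big h18).congr e.symm)
  · have h1 : 3 ^ 10 ∣ n.factorial := by
      rw [hc]
      exact hV.1.mul_left 2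
    have h2 : 3 ^ 10 ∣ (17).factorial := h1.trans (Nat.factorial_dvd_factorial (by omega))
    revert h2; decide

/-! ### the assembly -/

/-- the condition on the order -/
def P (c : ℕ) : Bool := (c % 3 ^ 10 == 0) && (c % 3 ^ 11 != 0)

theorem P_of {N : ℕ} (h : 3 ^ 10 ∣ N ∧ ¬ 3 ^ 11 ∣ N) : P N = true := by
  unfold P
  rw [Bool.and_eq_true]
  refine ⟨by simpa using Nat.mod_eq_zero_of_dvd h.1, ?_⟩
  have := h.2
  norm_num at this
  simpa [Nat.dvd_iff_mod_eq_zero] using this

theorem big_contra {q e d N u : ℕ} (hq : IsPrimePow q) (h3 : 3 ∣ q) (hd : d.Coprime q) (h : d * N = q ^ e * u)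
    (hV : ¬ 3 ^ 11 ∣ N) (he : 11 ≤ e) : False := by
  obtain ⟨f, hf, -, hle⟩ := le_ten hq h3 hd h hV
  have : 1 * 11 ≤ f * e := Nat.mul_le_mul hf he
  omega

/-- **Elimination**, with the rows as a hypothesis. -/
theorem elim_rows (R : Rows) (T : OrderTable.{u}) {K : Type u} [Group K] (h : IsKnownSimple' K)
    (hV : Vn 10 K) (h27 : ∃ x : K, orderOf x = 27) (hB : ¬ Big K) : Spor.IsoTh K := by
  have key : ∀ (g : Grp), g ∈ spor.map (fun x => x.1) → g ≠ .th → Real g K → False := fun g hg hne hr => by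
    obtain ⟨x, hx, rfl⟩ := List.mem_map.1 hg
    have h1 := P_of hV
    rw [T.spor K x hx hr] at h1
    have h2 : ∀ x ∈ spor, x.1 ≠ .th → P x.2 = false := by decide +kernel
    rw [h2 x hx hne] at h1
    exact absurd h1 (by decide)
  have hV' : ∀ {Y : Type} [Group Y] (e : K ≃* Y), 3 ^ 10 ∣ Nat.card Y ∧ ¬ 3 ^ 11 ∣ Nat.card Y := by
    intro Y _ e
    rw [← Nat.card_congr e.toEquiv]
    exact hV
  rcases h with h | h | h | h | h | h | h | h | h | h
  · exfalso
    have h3 := (Nat.prime_dvd_prime_iff_eq Nat.prime_three h).1 ((dvd_pow_self 3 (by norm_num)).trans hV.1)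
    have h4 := hV.1
    rw [← h3] at h4
    revert h4; decide
  · obtain ⟨n, hn, ⟨e⟩⟩ := h
    exact (alt_case hn hV hB e).elim
  · obtain ⟨F, _, _, n, hn, hn2, ⟨e⟩⟩ := h
    exact (psl_case R hn hV h27 hB e).elim
  · obtain ⟨F, _, _, n, hn, hn2, ⟨e⟩⟩ := h
    exact (psp_case R hn hV h27 hB e).elim
  · obtain ⟨F, _, _, n, q, hF, hn, hn2, ⟨e⟩⟩ := h
    exact (psu_case R hF hn hV h27 hB e).elim
  · obtain ⟨F, _, _, n, hn, ho, ⟨e⟩⟩ := h
    exact (oodd_case R hn ho hV hB e).elim
  · obtain ⟨F, _, _, n, hn, ⟨e⟩⟩ := h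
    exact (oplus_case R hn hV hB e).elim
  · obtain ⟨F, _, _, n, a, b, hn, hab, ⟨e⟩⟩ := h
    exact (ominus_case R hn hab hV hB e).elim
  · exfalso
    rcases h with h | h | h | h | h | h | h | h | h | h | h
    · -- `G₂`
      obtain ⟨F, _, _, hq, ⟨e⟩⟩ := h
      by_cases ho : 3 ∣ Fintype.card F
      · obtain ⟨f, hf, -, he⟩ := eq_ten (e := 6) (d := 1) (N := Nat.card ↥(Lie.chevG2.group F))
          (u := (Fintype.card F ^ 2 - 1) * (Fintype.card F ^ 6 - 1)) Fintype.isPrimePow_card_of_field ho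
          (Nat.coprime_one_left _)
          (Nat.Coprime.mul_left (cop_sub Fintype.card_pos (by norm_num)) (cop_sub Fintype.card_pos (by norm_num)))
          (by rw [T.g2 F]; ring) (hV' e)
        omega
      · exact hB ((R.g2 (three_ne ho)).congr e.symm hV)
    · -- `F₄`
      obtain ⟨F, _, _, ⟨e⟩⟩ := h
      by_cases ho : 3 ∣ Fintype.card F
      · have h1 := T.f4 F _ rfl
        simp only [mul_assoc] at h1
        rw [← one_mul (Nat.card _)] at h1
        exact big_contra (e := 24) Fintype.isPrimePow_card_of_field ho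
          (Nat.coprime_one_left _) h1 (hV' e).2 (by norm_num)
      · exact hB ((R.f4 (three_ne ho)).congr e.symm hV)
    · -- `E₆`
      obtain ⟨F, _, _, ⟨e⟩⟩ := h
      by_cases ho : 3 ∣ Fintype.card F
      · have h0 := cop_sub (q := Fintype.card F) (k := 1) Fintype.card_pos le_rfl
        rw [pow_one] at h0
        have h1 := T.e6 F _ rfl
        simp only [mul_assoc] at h1
        exact big_contra (e := 36) Fintype.isPrimePow_card_of_field ho
          (Nat.Coprime.coprime_dvd_left (Nat.gcd_dvd_right 3 _) h0) h1 (hV' e).2 (by norm_num)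
      · exact hB ((R.e6 (three_ne ho)).congr e.symm hV)
    · -- `E₇`
      obtain ⟨F, _, _, ⟨e⟩⟩ := h
      by_cases ho : 3 ∣ Fintype.card F
      · have h0 := cop_sub (q := Fintype.card F) (k := 1) Fintype.card_pos le_rfl
        rw [pow_one] at h0
        have h1 := T.e7 F _ rfl
        simp only [mul_assoc] at h1
        exact big_contra (e := 63) Fintype.isPrimePow_card_of_field ho
          (Nat.Coprime.coprime_dvd_left (Nat.gcd_dvd_right 2 _) h0) h1 (hV' e).2 (by norm_num)
      · exact hB ((R.e7 (three_ne ho)).congr e.symm hV)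
    · -- `E₈`
      obtain ⟨F, _, _, ⟨e⟩⟩ := h
      by_cases ho : 3 ∣ Fintype.card F
      · have h1 := T.e8 F _ rfl
        simp only [mul_assoc] at h1
        rw [← one_mul (Nat.card _)] at h1
        exact big_contra (e := 120) Fintype.isPrimePow_card_of_field ho
          (Nat.coprime_one_left _) h1 (hV' e).2 (by norm_num)
      · exact hB ((R.e8 (three_ne ho)).congr e.symm hV)
    · -- `²E₆`
      obtain ⟨F, _, _, q, hq, hF, ⟨e⟩⟩ := h
      by_cases ho : 3 ∣ q
      · have h0 := cop_add (q := q) (k := 1) le_rfl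
        rw [pow_one] at h0
        have h1 := T.te6 F q hq hF
        simp only [mul_assoc] at h1
        exact big_contra (e := 36) hq ho
          (Nat.Coprime.coprime_dvd_left (Nat.gcd_dvd_right 3 _) h0) h1 (hV' e).2 (by norm_num)
      · exact hB ((R.te6 hq hF (three_ne_of_pow hF ho)).congr e.symm hV)
    · -- `³D₄`
      obtain ⟨F, _, _, q, hq, hF, ⟨e⟩⟩ := h
      by_cases ho : 3 ∣ q
      · have h1 := T.td4 F q hq hF
        simp only [mul_assoc] at h1
        rw [← one_mul (Nat.card _)] at h1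
        exact big_contra (e := 12) hq ho
          (Nat.coprime_one_left _) h1 (hV' e).2 (by norm_num)
      · exact hB ((R.td4 hq hF (three_ne_of_pow hF ho)).congr e.symm hV)
    · -- Suzuki
      obtain ⟨F, _, _, m, hm, hF, ⟨e⟩⟩ := h
      have hd : 3 ∣ Nat.card K := (dvd_pow_self 3 (by norm_num)).trans hV.1
      rw [Nat.card_congr e.toEquiv, T.sz F m hm hF] at hd
      obtain ⟨k, rfl⟩ : ∃ k, m = k + 1 := ⟨m - 1, by omega⟩
      obtain ⟨h1, -, h2⟩ := odd_pow_mod k
      rw [show 2 * (k + 1) + 1 = 2 * k + 3 by ring] at hd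
      generalize 2 ^ (2 * k + 3) = q at hd h1 h2
      rcases (Nat.Prime.dvd_mul Nat.prime_three).1 hd with hd | hd
      · rcases (Nat.Prime.dvd_mul Nat.prime_three).1 hd with hd | hd
        · have := Nat.prime_three.dvd_of_dvd_pow hd
          omega
        · omega
      · have : q ^ 2 % 3 = 1 := by rw [Nat.pow_mod, h2]
        omega
    · -- Ree
      obtain ⟨F, _, _, m, hm, hF, ⟨e⟩⟩ := h
      have h1 := T.ree F m hm hF
      rw [mul_assoc, ← one_mul (Nat.card _)] at h1
      have hpp : IsPrimePow (3 ^ (2 * m + 1)) :=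
        (isPrimePow_nat_iff _).2 ⟨3, 2 * m + 1, Nat.prime_three, by omega, rfl⟩
      have h2 := cop_sub (q := 3 ^ (2 * m + 1)) (k := 1) (Nat.pos_of_ne_zero (by positivity)) le_rfl
      rw [pow_one] at h2
      obtain ⟨f, hf, -, he⟩ := eq_ten hpp (dvd_pow_self 3 (by omega)) (Nat.coprime_one_left _)
        (Nat.Coprime.mul_left h2 (cop_add (by norm_num))) h1 (hV' e)
      omega
    · -- `²F₄`
      obtain ⟨F, _, _, m, hm, hF, ⟨e⟩⟩ := h
      exact hB ((R.tf4 hm hF).congr e.symm hV)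
    · exact key .tits (by decide) (by decide) h
  · rcases h with h | h | h | h | h | h | h | h | h | h | h | h | h | h | h | h | h | h | h | h | h | h | h | h | h | h
    · exact (key .m11 (by decide) (by decide) h).elim
    · exact (key .m12 (by decide) (by decide) h).elim
    · exact (key .m22 (by decide) (by decide) h).elim
    · exact (key .m23 (by decide) (by decide) h).elim
    · exact (key .m24 (by decide) (by decide) h).elim
    · exact (key .j1 (by decide) (by decide) h).elim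
    · exact (key .j2 (by decide) (by decide) h).elim
    · exact (key .j3 (by decide) (by decide) h).elim
    · exact (key .j4 (by decide) (by decide) h).elim
    · exact (key .co1 (by decide) (by decide) h).elim
    · exact (key .co2 (by decide) (by decide) h).elim
    · exact (key .co3 (by decide) (by decide) h).elim
    · exact (key .mcl (by decide) (by decide) h).elim
    · exact (key .hs (by decide) (by decide) h).elim
    · exact (key .suz (by decide) (by decide) h).elim
    · exact (key .he (by decide) (by decide) h).elim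
    · exact (key .ru (by decide) (by decide) h).elim
    · exact (key .on (by decide) (by decide) h).elim
    · exact (key .ly (by decide) (by decide) h).elim
    · exact (key .fi22 (by decide) (by decide) h).elim
    · exact (key .fi23 (by decide) (by decide) h).elim
    · exact (key .fi24 (by decide) (by decide) h).elim
    · exact (key .hn (by decide) (by decide) h).elim
    · exact h
    · exact (key .b (by decide) (by decide) h).elim
    · exact (key .m (by decide) (by decide) h).elim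

end Cfsg.Agent.H352.Th
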